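import Cfsg.Agent.H623.GU.Sec
import Cfsg.Agent.H623.GLn.D4A
import Cfsg.Agent.H501.GLn.FourB
import Cfsg.Agent.H120.GLB.Ctx
import Cfsg.Agent.H614.GLn.Cusp
import Cfsg.Agent.H76.GLB.ProdBlk
import Cfsg.Agent.H76.GLB.DE2
import Cfsg.Agent.H76.GLB.Orbit

/-!
# S4537 / S4536: the block `Δ^w`, `w` even, is induced from `b(Δ^(w/2)) × b(Δ^(w/2))`

Abstract realizations `R : Rz Q M p n G`, `R₁ : Rz Q M p a X` (helper112), `n = 2 a`, an embedding `j : X × X → G` with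
image the centralizer of a `p`-element `u`, values of `R.om x` at `u j(A, B)` given by the coproduct.

* `exists_half` : the labels `t₁`, `t₂` and the induced block;
* `exists_half_same` : with the same block twice, if families are blocks for `X`.
-/

set_option autoImplicit false
set_option linter.unusedSectionVars false

open Cfsg
open scoped ComplexConjugate TensorProduct

namespace Cfsg.Agent.H139.GUX

open Cfsg.Agent.H577.GLB.Std Cfsg.Agent.H614 Cfsg.Agent.H614.GLn Cfsg.Agent.H623.GLn Cfsg.Agent.H623.GU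
open Cfsg.Agent.H577.GLB.Real (coP PhiF PGen frm OnlyOn cfE)
open Cfsg.Agent.H112.GLB Cfsg.Agent.H608.BlockRank
open Cfsg.Agent.Blocks.Local Cfsg.Agent.Blocks.Basic Cfsg.Agent.H624.Sl

universe u

variable {Q : ℤ} {M : ℕ} [NeZero M] {p n a m : ℕ} {G X : Type u} [Group G] [Finite G] [Group X] [Finite X]
  {𝔐 : Ideal AlgInt}

/-- the values of `om` at `u (A, B)` for `p`-regular `A`, `B` are given by the coproduct (no extension of fields) -/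
def Val1 {b : ℕ} {Y : Type u} [Group Y] (R : Rz Q M p n G) (R₁ : Rz Q M p a X) (R₂ : Rz Q M p b Y) (j : X × Y →* G)
    (u : G) : Prop :=
  ∀ x ∈ PGen Q M p, ∀ (A : X) (B : Y), ¬ p ∣ orderOf A → ¬ p ∣ orderOf B →
    R.om x (u * j (A, B)) = LinearMap.mul' ℂ ℂ (TensorProduct.map (evR R₁ A) (evR R₂ B) (coP M x))

/-- change of the parameter `Q` to `Q ^ 1` -/
theorem exists_pow_one (R₁ : Rz Q M p a X) : ∃ R₁' : Rz (Q ^ 1) M p a X, R₁'.om = R₁.om := by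
  rw [pow_one]
  exact ⟨R₁, rfl⟩

/-- the pairing theorem without extension of fields -/
theorem pairing_one (hp : p.Prime) {b : ℕ} {Y : Type u} [Group Y] [Finite Y] {R : Rz Q M p n G} {R₁ : Rz Q M p a X}
    {R₂ : Rz Q M p b Y} (h₁ : Gr R₁) (h₂ : Gr R₂)
    {j : X × Y →* G} (hj : Function.Injective j) {H : Subgroup G} [Fintype H] (hH : j.range = H) {u : G}
    (hval : Val1 R R₁ R₂ j u) {x : RS M}
    (hx : x ∈ PGen Q M p) {y₁ y₂ : RS M} (hy₁ : y₁ ∈ Hom Q M a) (hy₂ : y₂ ∈ Hom Q M b) (ψ : H → ℂ)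
    (hψ : ∀ (x : X × Y) (h : H), j x = h → ψ h = R₁.om y₁ x.1 * R₂.om y₂ x.2) :
    classInner (pRegularPart p (fun c : H => R.om x (u * (c : G)))) ψ =
      LinearMap.mul' ℂ ℂ (TensorProduct.map
        (frm Q M y₁ ∘ₗ (tauP Q M p).toLinearMap ∘ₗ (PhiF Q M 1).toLinearMap)
        (frm Q M y₂ ∘ₗ (tauP Q M p).toLinearMap) (coP M x)) := by
  obtain ⟨R₁', hR₁'⟩ := exists_pow_one R₁
  have hGr : Gr R₁' := by
    intro m c hm
    rw [hR₁']
    exact h₁ m c hm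
  have hv : Val (f := 1) R R₁' R₂ j u := by
    intro x hx A B hA hB
    rw [hval x hx A B hA hB]
    refine map_coP_congr hx ?_ (fun _ _ => rfl)
    intro y hy
    rw [LinearMap.comp_apply, AlgHom.toLinearMap_apply, evR_apply, evR_apply, hR₁',
      H501.GLn.PhiF_one (PGen_le hy) R.unit]
  have h3 := section_pairing (f := 1) hp hGr h₂ hj hH hv hx (y₁ := y₁) (y₂ := y₂) (by rw [pow_one]; exact hy₁) hy₂ ψ (by
    intro x h hxh
    rw [hR₁']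
    exact hψ x h hxh)
  rw [h3, pow_one]

/-- **The section of `u`.** -/
theorem exists_half (h𝔐 : IsPModular p 𝔐) {R : Rz Q M p n G} {R₁ : Rz Q M p a X} (h₁ : Gr R₁) (hna : n = a + a)
    (hm : n ≤ m) (hlab₁ : R₁.Bij m) {j : X × X →* G} (hj : Function.Injective j) {u : G}
    (hu : ∃ k : ℕ, orderOf u = p ^ k) (hr : j.range = Subgroup.centralizer ({u} : Set G)) (hval : Val1 R R₁ R₁ j u)
    {B : Set (IrrCharacter G)} (hB : IsPBlock 𝔐 B) {χ : IrrCharacter G} (hχ : χ ∈ B) {t : LabZ Q M m n}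
    (ht : R.IsLb χ t) (htp : POnly M p t.t) {δ₀ : ZMod M} (ho : OnlyOn Q M δ₀ t.t) {w : ℕ} (hw0 : 0 < w)
    (hw : H577.GLB.Std.bsz (t.t δ₀) = w + w) :
    ∃ (χ₁ χ₂ : IrrCharacter X) (t₁ t₂ : LabZ Q M m a), R₁.IsLb χ₁ t₁ ∧ R₁.IsLb χ₂ t₂ ∧ OnlyOn Q M δ₀ t₁.t ∧
      OnlyOn Q M δ₀ t₂.t ∧ H577.GLB.Std.bsz (t₁.t δ₀) = w ∧ H577.GLB.Std.bsz (t₂.t δ₀) = w ∧
      IsInducedBlock 𝔐 (Subgroup.centralizer ({u} : Set G)) (prodBlk (Subgroup.centralizer ({u} : Set G)) j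
        (blockOf 𝔐 (χ₁ : X → ℂ)) (blockOf 𝔐 (χ₂ : X → ℂ))) B := by
  classical
  have hp := h𝔐.1
  have : Fact p.Prime := ⟨hp⟩
  have := isPrime_of_isPModular h𝔐
  have := Fintype.ofFinite (Subgroup.centralizer ({u} : Set G))
  have hQ := R.unit
  have hsize := H76.GLB.size_onlyOn hQ t ho
  have hd := RSt.perZ_pos hQ δ₀
  have ha : a = perZ Q M δ₀ * w := by
    rw [hw, mul_add] at hsize
    omega
  subst ha
  have hwm : w + w ≤ m := by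
    refine le_trans ?_ hm
    rw [hsize, hw]
    exact Nat.le_mul_of_pos_left _ hd
  have hδ : PReg M p δ₀ := by
    by_contra h
    have := htp δ₀ h
    omega
  have hδc : PReg M p (canon Q M δ₀) := by
    obtain ⟨i, hi⟩ := RSt.sameZ_canon (Q := Q) δ₀
    exact H76.GLB.pReg_of_same ⟨i, hi⟩ hδ
  have hx : SchP Q M t.t ∈ PGen Q M p := RSt.SchP_mem_PGen t htp
  have hne : cfE Q M 1 (SchP Q M t.t) (MvPolynomial.X (perZ Q M δ₀, canon Q M δ₀) ^ w)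
      (MvPolynomial.X (perZ Q M δ₀, canon Q M δ₀) ^ w) ≠ 0 := by
    rw [H120.GLB.Ctx.cfE_one hQ (PGen_le hx), ← pow_add, ← hw]
    exact RSt.form_SchP_X_pow_ne_zero hQ t ho (by rw [hw]; exact hwm)
  have hspan := RSt.X_pow_mem_span (Q := Q) (m := m) hQ δ₀ (w := w) (by omega)
  obtain ⟨y₁, ⟨t₁, ho₁, hb₁, rfl⟩, y₂, ⟨t₂, ho₂, hb₂, rfl⟩, hpair⟩ := H501.GLn.pairing_ne_zero hp hQ
    (v := (perZ Q M δ₀, canon Q M δ₀)) hδc w w hx hne _ _ hspan hspan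
  obtain ⟨χ₁, hχ₁, -⟩ := hlab₁.2 t₁
  obtain ⟨χ₂, hχ₂, -⟩ := hlab₁.2 t₂
  refine ⟨χ₁, χ₂, t₁, t₂, hχ₁, hχ₂, ho₁, ho₂, hb₁, hb₂, ?_⟩
  obtain ⟨ψ, hψ⟩ := H76.GLB.exists_prodChar hj hr χ₁ χ₂
  obtain ⟨s, hs⟩ := ht
  obtain ⟨s₁, hs₁⟩ := hχ₁
  obtain ⟨s₂, hs₂⟩ := hχ₂
  have h3 := pairing_one hp h₁ h₁ hj hr hval hx (schP_mem_hom hQ t₁) (schP_mem_hom hQ t₂)
    ((((s₁ : ℤ) : ℂ) * ((s₂ : ℤ) : ℂ)) • (ψ : Subgroup.centralizer ({u} : Set G) → ℂ)) (by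
      intro x h hxh
      rw [Pi.smul_apply, hψ x h hxh, hs₁, hs₂, smul_eq_mul, Pi.smul_apply, Pi.smul_apply, smul_eq_mul, smul_eq_mul]
      ring)
  rw [← h3] at hpair
  have hne' : classInner (pRegularPart p (fun c : Subgroup.centralizer ({u} : Set G) => (χ : G → ℂ) (u * (c : G))))
      (ψ : Subgroup.centralizer ({u} : Set G) → ℂ) ≠ 0 := by
    intro h0
    apply hpair
    have h4 : (fun c : Subgroup.centralizer ({u} : Set G) => R.om (SchP Q M t.t) (u * (c : G))) =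
        ((s : ℤ) : ℂ) • (fun c : Subgroup.centralizer ({u} : Set G) => (χ : G → ℂ) (u * (c : G))) := by
      funext c
      rw [hs]
      rfl
    rw [h4, ← Cfsg.Agent.H646.RegInner.regMap_apply, map_smul, Characters.Core.classInner_smul_left,
      Cfsg.Agent.H646.RegInner.regMap_apply, Characters.Core.classInner_smul_right, h0, mul_zero, mul_zero]
  have hind := induced_of_pairing h𝔐 hu rfl hB hχ (isPBlock_blockOf ψ) (mem_blockOf_self ψ) hne'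
  rwa [← Cfsg.Agent.H76.GLB.prodBlk_blockOf h𝔐 hj hr χ₁ χ₂ ψ hψ] at hind

/-- **The section of `u`, the same block twice**, if families are blocks for `X`. -/
theorem exists_half_same (h𝔐 : IsPModular p 𝔐) (hQp : (Q : ZMod p) = 1) {R : Rz Q M p n G} {R₁ : Rz Q M p a X}
    (h₁ : Gr R₁) (hna : n = a + a)
    (hm : n ≤ m) (hlab₁ : R₁.Bij m) (hfam : ∀ (χ χ' : IrrCharacter X) (t t' : LabZ Q M m a), R₁.IsLb χ t →
      R₁.IsLb χ' t' → SameFam Q M p t.t t'.t → χ' ∈ blockOf 𝔐 (χ : X → ℂ))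
    {j : X × X →* G} (hj : Function.Injective j) {u : G}
    (hu : ∃ k : ℕ, orderOf u = p ^ k) (hr : j.range = Subgroup.centralizer ({u} : Set G)) (hval : Val1 R R₁ R₁ j u)
    {B : Set (IrrCharacter G)} (hB : IsPBlock 𝔐 B) {χ : IrrCharacter G} (hχ : χ ∈ B) {t : LabZ Q M m n}
    (ht : R.IsLb χ t) (htp : POnly M p t.t) {δ₀ : ZMod M} (ho : OnlyOn Q M δ₀ t.t) {w : ℕ} (hw0 : 0 < w)
    (hw : H577.GLB.Std.bsz (t.t δ₀) = w + w) :
    ∃ (χ₁ : IrrCharacter X) (t₁ : LabZ Q M m a), R₁.IsLb χ₁ t₁ ∧ POnly M p t₁.t ∧ OnlyOn Q M δ₀ t₁.t ∧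
      H577.GLB.Std.bsz (t₁.t δ₀) = w ∧
      IsInducedBlock 𝔐 (Subgroup.centralizer ({u} : Set G)) (prodBlk (Subgroup.centralizer ({u} : Set G)) j
        (blockOf 𝔐 (χ₁ : X → ℂ)) (blockOf 𝔐 (χ₁ : X → ℂ))) B := by
  classical
  have hp := h𝔐.1
  have := isPrime_of_isPModular h𝔐
  have hδ : PReg M p δ₀ := by
    by_contra h
    have := htp δ₀ h
    omega
  have hPO : ∀ (t : LabZ Q M m a), OnlyOn Q M δ₀ t.t → POnly M p t.t := by
    intro t ht c hc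
    by_contra h
    obtain ⟨i, hi⟩ := ht c (Nat.pos_of_ne_zero h)
    exact hc (H76.GLB.pReg_of_same ⟨i, hi⟩ hδ)
  obtain ⟨χ₁, χ₂, t₁, t₂, hχ₁, hχ₂, ho₁, ho₂, hb₁, hb₂, hind⟩ :=
    exists_half h𝔐 h₁ hna hm hlab₁ hj hu hr hval hB hχ ht htp ho hw0 hw
  refine ⟨χ₁, t₁, hχ₁, hPO t₁ ho₁, ho₁, hb₁, ?_⟩
  have h2 : blockOf 𝔐 (χ₁ : X → ℂ) = blockOf 𝔐 (χ₂ : X → ℂ) := by
    refine isPBlock_eq_blockOf (isPBlock_blockOf χ₁) (hfam χ₁ χ₂ t₁ t₂ hχ₁ hχ₂ ?_)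
    rw [H76.GLB.sameFam_iff hp hQp (hPO t₁ ho₁) (hPO t₂ ho₂)]
    intro c
    by_cases hc : SameZ Q M δ₀ c
    · rw [H76.GLB.orb_same t₁ hc, H76.GLB.orb_same t₂ hc, hb₁, hb₂]
    · have h4 : H577.GLB.Std.bsz (t₁.t c) = 0 := by
        by_contra h
        exact hc (ho₁ c (Nat.pos_of_ne_zero h))
      have h5 : H577.GLB.Std.bsz (t₂.t c) = 0 := by
        by_contra h
        exact hc (ho₂ c (Nat.pos_of_ne_zero h))
      rw [h4, h5]
  rwa [← h2] at hind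

end Cfsg.Agent.H139.GUX
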